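import Cfsg.Agent.S2545
import Cfsg.Agent.S0822
import Cfsg.Agent.S0279
import Cfsg.Agent.H948.UProd
import Cfsg.Agent.Blocks.Basic

/-!
# S4816: the Steinberg character of degree 81 of `U4(2) = PSp4(3)` (helper655)

* `card_su4` : `|SU_4(2)| = 25920`; `exists_eightyone` : an irreducible character of degree 81 of `SU 4 F 2`, `|F| = 4`.
-/

set_option autoImplicit false

namespace Cfsg.Agent.H655.RIM

open Cfsg

theorem card_su4 {F : Type*} [Field F] [Fintype F] (hF : Fintype.card F = 4) : Nat.card (SU 4 F 2) = 25920 := by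
  rw [H948.UProd.card_SU (q := 2) (by rw [hF]; norm_num) (by norm_num)]
  have h3 : ¬ Even 3 := by decide
  simp [H948.UProd.ph, Finset.prod_range_succ, h3]

theorem card_psu4 {F : Type*} [Field F] [Fintype F] (hF : Fintype.card F = 4) : Nat.card (PSU 4 F 2) = 25920 := by
  have h1 := Subgroup.card_mul_index (Subgroup.center (SU 4 F 2))
  rw [S0279.result (q := 2) (by rw [hF]; norm_num) 4 (by norm_num), card_su4 hF] at h1
  norm_num at h1
  exact h1

theorem fact_num : (25920 : ℕ).factorization 3 = 4 := by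
  rw [show (25920 : ℕ) = 3 ^ 4 * 320 by norm_num, Nat.factorization_mul (by norm_num) (by norm_num),
    Nat.Prime.factorization_pow Nat.prime_three, Finsupp.add_apply, Finsupp.single_eq_same,
    Nat.factorization_eq_zero_of_not_dvd (by norm_num)]

/-- **an irreducible character of degree 81** -/
theorem exists_eightyone {F : Type*} [Field F] [Fintype F] (hF : Fintype.card F = 4) :
    ∃ χ : SU 4 F 2 → ℂ, IsIrrCharacter (SU 4 F 2) χ ∧ charDegree χ = 81 := by
  obtain ⟨e⟩ := S0822.result (F := F) (K := ZMod 3) hF (by rw [ZMod.card])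
  obtain ⟨χ, hχ, hχ1⟩ := S2545.result (F := ZMod 3) 3 2 (by norm_num)
  obtain ⟨h1, -⟩ := hχ1 default
  let f : SU 4 F 2 →* PSp 2 (ZMod 3) := e.toMonoidHom.comp (QuotientGroup.mk' (Subgroup.center (SU 4 F 2)))
  have hf : Function.Surjective f := e.surjective.comp (QuotientGroup.mk'_surjective _)
  refine ⟨χ ∘ f, Characters.Core.isIrr_comp f hf hχ, Blocks.Basic.charDegree_of_eq ?_⟩
  show χ (f 1) = _
  rw [map_one, h1, Sylow.card_eq_multiplicity, ← Nat.card_congr e.toEquiv, card_psu4 hF, fact_num]
  norm_num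

end Cfsg.Agent.H655.RIM
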